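import Cfsg.Agent.ChevalleyStructure.RootWord
import Cfsg.Agent.ChevalleyStructure.RootComb
import Cfsg.Agent.ChevalleyStructure.Reach
import Cfsg.Agent.ChevalleyStructure.St.TabAll

/-!
# Cartan integers of pairs of roots

For the seven tabulated data and roots `r, s`, `s ≠ ±r`: `A_{r,s} A_{s,r} ∈ {0,1,2,3}`. Consequences: functionals
`lin D m` positive on both, functionals vanishing on `r` with value `1`, `2` or `3` on `s`; functionals with value `1`
on a given root (types other than `B₂`).
-/

set_option autoImplicit false

namespace Cfsg.Agent.H134.PairFacts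

open Cfsg.Lie Cfsg.Agent.ChevalleyStructure Cfsg.Agent.ChevalleyStructure.RootCombGood
  Cfsg.Agent.ChevalleyStructure.RootWord
open Cfsg.Agent.ChevalleyStructure.St.Conj (lin lin_def lin_comb lin_neg Tab)

/-- dot product of lists -/
def dot : List ℤ → List ℤ → ℤ
  | a :: l, b :: m => a * b + dot l m
  | _, _ => 0

theorem dot_eq (l : List ℤ) : ∀ (n : ℕ) (f : ℕ → ℤ),
    dot l ((List.range n).map f) = ∑ k ∈ Finset.range n, l.getD k 0 * f k := by
  induction l with
  | nil =>
    intro n f
    have : dot [] ((List.range n).map f) = 0 := by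
      cases h : (List.range n).map f <;> rfl
    rw [this]
    exact (Finset.sum_eq_zero fun k _ => by simp).symm
  | cons a l ih =>
    intro n f
    cases n with
    | zero => rfl
    | succ n =>
      rw [List.range_succ_eq_map, List.map_cons, List.map_map]
      show a * f 0 + dot l ((List.range n).map (f ∘ Nat.succ)) = _
      rw [ih n (f ∘ Nat.succ), Finset.sum_range_succ']
      simp only [List.getD_cons_succ, List.getD_cons_zero, Function.comp, Nat.succ_eq_add_one]
      ring

/-- The check for the pairs `(p_i, s)`. -/
def chk (D : ChevalleyDatum) : Bool := (List.range D.rank).all fun i =>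
  let p := D.simple i
  let np := D.neg p
  let c : List ℤ := (List.range D.rank).map fun k => D.cartan k p
  (List.range D.nroots).all fun s =>
    (Nat.beq s p) || (Nat.beq s np) || (let a := D.cartan i s
      let b := dot (D.coroot.getD s #[]).toList c
      (decide (0 ≤ a * b) && decide (a * b ≤ 3) && ((decide (a = 0)) == (decide (b = 0)))))

set_option maxRecDepth 100000 in
theorem chkB2 : chk chevB2 = true := by decide +kernel
set_option maxRecDepth 100000 in
theorem chkG2 : chk chevG2 = true := by decide +kernel
set_option maxRecDepth 100000 in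
theorem chkD4 : chk chevD4 = true := by decide +kernel
set_option maxRecDepth 100000 in
theorem chkF4 : chk chevF4 = true := by decide +kernel
set_option maxRecDepth 100000 in
theorem chkE6 : chk chevE6 = true := by decide +kernel
set_option maxRecDepth 100000 in
theorem chkE7 : chk chevE7 = true := by decide +kernel
/-- The check for the pairs `(p_i, s)`, one `i`. -/
def chkRow (D : ChevalleyDatum) (i : ℕ) : Bool :=
  let p := D.simple i
  let np := D.neg p
  let c : List ℤ := (List.range D.rank).map fun k => D.cartan k p
  (List.range D.nroots).all fun s =>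
    (Nat.beq s p) || (Nat.beq s np) || (let a := D.cartan i s
      let b := dot (D.coroot.getD s #[]).toList c
      (decide (0 ≤ a * b) && decide (a * b ≤ 3) && ((decide (a = 0)) == (decide (b = 0)))))

set_option maxRecDepth 100000 in
theorem chkE8_a : ([0, 1, 2].all fun i => chkRow chevE8 i) = true := by decide +kernel
set_option maxRecDepth 100000 in
theorem chkE8_b : ([3, 4, 5].all fun i => chkRow chevE8 i) = true := by decide +kernel
set_option maxRecDepth 100000 in
theorem chkE8_c : ([6, 7].all fun i => chkRow chevE8 i) = true := by decide +kernel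

theorem chkE8 : chk chevE8 = true := by
  show ((List.range 8).all fun i => chkRow chevE8 i) = true
  have h1 : List.range 8 = [0, 1, 2] ++ ([3, 4, 5] ++ [6, 7]) := by decide
  rw [h1, List.all_append, List.all_append, chkE8_a, chkE8_b, chkE8_c]
  rfl

theorem chk_of_mem {D : ChevalleyDatum} (hD : D ∈ [chevG2, chevB2, chevD4, chevF4, chevE6, chevE7, chevE8]) :
    chk D = true := by
  simp only [List.mem_cons, List.not_mem_nil, or_false] at hD
  rcases hD with h | h | h | h | h | h | h <;> rw [h]
  · exact chkG2
  · exact chkB2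
  · exact chkD4
  · exact chkF4
  · exact chkE6
  · exact chkE7
  · exact chkE8

/-- The property of a pair. -/
def PairOK (a b : ℤ) : Prop := 0 ≤ a * b ∧ a * b ≤ 3 ∧ (a = 0 ↔ b = 0)

variable {D : ChevalleyDatum} (hD : D ∈ [chevG2, chevB2, chevD4, chevF4, chevE6, chevE7, chevE8])

theorem lin_co (r s : ℕ) : lin D (co D r) s = car D r s := rfl

include hD

theorem pair_simple {i s : ℕ} (hi : i < D.rank) (hs : s < D.nroots) (h1 : s ≠ D.simple i)
    (h2 : s ≠ D.neg (D.simple i)) : PairOK (D.cartan i s) (car D s (D.simple i)) := by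
  have h := List.all_eq_true.1 (List.all_eq_true.1 (chk_of_mem hD) i (List.mem_range.2 hi)) s (List.mem_range.2 hs)
  have hb : dot (D.coroot.getD s #[]).toList ((List.range D.rank).map fun k => D.cartan k (D.simple i)) =
      car D s (D.simple i) := by
    rw [dot_eq]
    refine Finset.sum_congr rfl fun k _ => ?_
    congr 1
    show (D.coroot.getD s #[]).toList.getD k 0 = (D.coroot.getD s #[]).getD k 0
    simp
  simp only [Bool.or_eq_true, Bool.and_eq_true, decide_eq_true_eq, beq_iff_eq, decide_eq_decide] at h
  rcases h with (h | h) | h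
  · exact absurd (Nat.eq_of_beq_eq_true h) h1
  · exact absurd (Nat.eq_of_beq_eq_true h) h2
  · rw [hb] at h
    exact ⟨h.1.1, h.1.2, h.2⟩

/-- `A_{r,s} A_{s,r} ∈ {0,1,2,3}` for roots `s ≠ ±r`. -/
theorem pair {r s : ℕ} (hr : r < D.nroots) (hs : s < D.nroots) (h1 : s ≠ r) (h2 : s ≠ D.neg r) :
    PairOK (car D r s) (car D s r) := by
  have G := RootComb.good_of_mem hD
  refine Reach.reach hD (fun r => ∀ s < D.nroots, s ≠ r → s ≠ D.neg r → PairOK (car D r s) (car D s r)) ?_ ?_
    r hr s hs h1 h2
  · intro i hi s hs h1 h2
    rw [car_simple G hi]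
    exact pair_simple hD hi hs h1 h2
  · intro i hi r hr ih s hs h1 h2
    have hs' := Reach.reflect_lt hD hi hs
    have e : s = D.reflectRoot i (D.reflectRoot i s) := (Reach.reflect_reflect hD hi hs).symm
    rw [e, car_reflect G hi hr hs', car_reflect G hi hs' hr]
    refine ih _ hs' ?_ ?_
    · intro h
      exact h1 (by rw [e, h])
    · intro h
      exact h2 (by rw [e, h, Reach.reflect_neg hD hi hr])

/-- A functional positive on `r` and `s`, `s ≠ ±r`. -/
theorem exists_pos {r s : ℕ} (hr : r < D.nroots) (hs : s < D.nroots) (h1 : s ≠ r) (h2 : s ≠ D.neg r) :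
    ∃ m : ℕ → ℤ, 0 < lin D m r ∧ 0 < lin D m s := by
  have G := RootComb.good_of_mem hD
  obtain ⟨p1, p2, p3⟩ := pair hD hr hs h1 h2
  refine ⟨fun j => (2 - car D s r) * co D r j + (2 - car D r s) * co D s j, ?_⟩
  have hl : ∀ q, lin D (fun j => (2 - car D s r) * co D r j + (2 - car D r s) * co D s j) q =
      (2 - car D s r) * car D r q + (2 - car D r s) * car D s q := by
    intro q
    rw [lin_def]
    show _ = (2 - car D s r) * ∑ k ∈ Finset.range D.rank, co D r k * D.cartan k q +
      (2 - car D r s) * ∑ k ∈ Finset.range D.rank, co D s k * D.cartan k q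
    rw [Finset.mul_sum, Finset.mul_sum, ← Finset.sum_add_distrib]
    exact Finset.sum_congr rfl fun k _ => by ring
  rw [hl, hl, G.car_self hr, G.car_self hs]
  constructor <;> nlinarith

/-- A functional vanishing on `r`, with value `1`, `2` or `3` on `s`, `s ≠ ±r`. -/
theorem exists_tor {r s : ℕ} (hr : r < D.nroots) (hs : s < D.nroots) (h1 : s ≠ r) (h2 : s ≠ D.neg r) :
    ∃ m : ℕ → ℤ, lin D m r = 0 ∧ (lin D m s = 1 ∨ lin D m s = 2 ∨ lin D m s = 3) := by
  have G := RootComb.good_of_mem hD
  obtain ⟨p1, p2, p3⟩ := pair hD hr hs h1 h2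
  by_cases h0 : car D s r = 0
  · exact ⟨co D s, h0, Or.inr (Or.inl (G.car_self hs))⟩
  · refine ⟨fun j => 2 * co D s j + (- car D s r) * co D r j, ?_⟩
    have hl : ∀ q, lin D (fun j => 2 * co D s j + (- car D s r) * co D r j) q =
        2 * car D s q + (- car D s r) * car D r q := by
      intro q
      rw [lin_def]
      show _ = 2 * ∑ k ∈ Finset.range D.rank, co D s k * D.cartan k q +
        (- car D s r) * ∑ k ∈ Finset.range D.rank, co D r k * D.cartan k q
      rw [Finset.mul_sum, Finset.mul_sum, ← Finset.sum_add_distrib]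
      exact Finset.sum_congr rfl fun k _ => by ring
    rw [hl, hl, G.car_self hr, G.car_self hs]
    have h3 : car D r s ≠ 0 := fun h => h0 (p3.1 h)
    have h4 : 0 < car D r s * car D s r := lt_of_le_of_ne p1 (Ne.symm (mul_ne_zero h3 h0))
    constructor
    · ring
    · have h5 : 2 * 2 + -car D s r * car D r s = 4 - car D r s * car D s r := by ring
      rw [h5]
      omega

omit hD in
/-- The check for functionals with value one on the fundamental roots. -/
def chk1 (D : ChevalleyDatum) : Bool := (List.range D.rank).all fun i =>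
  (List.range D.rank).any fun k => decide (D.cartan k (D.simple i) = -1) || decide (D.cartan k (D.simple i) = -3)

theorem exists_one (h : chk1 D = true) {r : ℕ} (hr : r < D.nroots) : ∃ m : ℕ → ℤ, lin D m r = 1 := by
  have G := RootComb.good_of_mem hD
  obtain ⟨m0, T⟩ := St.TabAll.exists_tab hD
  refine Reach.reach hD (fun r => ∃ m : ℕ → ℤ, lin D m r = 1) ?_ ?_ r hr
  · intro i hi
    have h2 := List.all_eq_true.1 h i (List.mem_range.2 hi)
    obtain ⟨k, hk, h3⟩ := List.any_eq_true.1 h2
    have hk := List.mem_range.1 hk
    have hlin : ∀ (a b : ℤ), lin D (fun j => (if j = k then a else 0) + if j = i then b else 0) (D.simple i) =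
        a * D.cartan k (D.simple i) + b * 2 := by
      intro a b
      rw [lin_def]
      have e : ∀ j ∈ Finset.range D.rank, ((if j = k then a else 0) + if j = i then b else 0) *
          D.cartan j (D.simple i) = (if j = k then a * D.cartan k (D.simple i) else 0) +
            if j = i then b * D.cartan i (D.simple i) else 0 := by
        intro j _
        by_cases h1 : j = k
        · by_cases h2 : j = i
          · subst h1; subst h2; simp; ring
          · subst h1; simp [h2]
        · by_cases h2 : j = i
          · subst h2; simp [h1]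
          · simp [h1, h2]
      rw [Finset.sum_congr rfl e, Finset.sum_add_distrib, Finset.sum_ite_eq', Finset.sum_ite_eq',
        if_pos (Finset.mem_range.2 hk), if_pos (Finset.mem_range.2 hi), G.cartan_simple hi]
    simp only [Bool.or_eq_true, decide_eq_true_eq] at h3
    rcases h3 with h3 | h3
    · exact ⟨_, by rw [hlin (-1) 0, h3]; norm_num⟩
    · exact ⟨_, by rw [hlin (-1) (-1), h3]; norm_num⟩
  · rintro i hi s hs ⟨m, hm⟩
    refine ⟨fun j => 1 * m j + if j = i then (- lin D m (D.simple i)) else 0, ?_⟩
    rw [lin_comb D m 1 _ hi, T.refl_lin hi hs, T.refl_cartan i hi s hs i hi, T.cartan_simple i hi, hm]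
    ring

omit hD in
theorem chk1_of_mem {D : ChevalleyDatum} (hD : D ∈ [chevG2, chevD4, chevF4, chevE6, chevE7, chevE8]) :
    chk1 D = true := by
  simp only [List.mem_cons, List.not_mem_nil, or_false] at hD
  rcases hD with h | h | h | h | h | h <;> rw [h] <;> decide +kernel

end Cfsg.Agent.H134.PairFacts
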